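import Cfsg.Agent.H3.SL2Mod
import Cfsg.Agent.H3.Tri
import Cfsg.Agent.H1.Fitting

/-! Higman's theorem on `SL₂(2ⁿ)` acting with a fixed-point-free element of order three. -/

set_option autoImplicit false
set_option linter.unusedSectionVars false

namespace Cfsg.H3.QM

open Subgroup Matrix H7.Md
open scoped MatrixGroups commutatorElement

variable {F : Type*} [Field F] [Finite F] [CharP F 2]

theorem exists_sq_unit {a : F} (h : a ≠ 0) : ∃ t : Fˣ, (t : F) ^ 2 = a := by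
  obtain ⟨t, rfl⟩ := FiniteField.isSquare_of_char_two (ringChar.eq F 2) a
  exact ⟨Units.mk0 t (left_ne_zero_of_mul h), sq _⟩

theorem dg_conj (t : Fˣ) (s : F) : dg t * U s = U (t ^ 2 * s) * dg t := by
  rw [← mul_inv_eq_iff_eq_mul, conj_U_of_upper _ (by simp [dg, mkSL_coe])]; simp [dg, mkSL_coe]

theorem dg_inv (t : Fˣ) : (dg t)⁻¹ = dg t⁻¹ :=
  inv_eq_of_mul_eq_one_right (Subtype.ext (by simp [dg, mkSL_coe, one_fin_two]))

theorem tr_inv {R : Type*} [CommRing R] (A : SL(2, R)) : tr A⁻¹ = tr A := by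
  simp [tr, adjugate_fin_two, add_comm]

theorem U_mem_of_dg {C : Subgroup SL(2, F)} (h : ∀ t, dg t ∈ C) {A : SL(2, F)} (hA : A ∈ C)
    (h0 : A 0 0 ≠ 0) (h1 : A 0 1 ≠ 0) (h2 : A 1 0 ≠ 0) {a : Fˣ} (ha : a ≠ 1) (s : F) : U s ∈ C := by
  have c2 : (2 : F) = 0 := CharTwo.two_eq_zero
  obtain ⟨t, ht⟩ := exists_sq_unit (a := A 0 1 * A 1 0 / A 0 0 ^ 2) (by simp [*])
  rw [eq_div_iff (pow_ne_zero 2 h0)] at ht
  have hd := det_SL2 A
  have t0 := t.ne_zero
  obtain ⟨m, hm, m0, m1⟩ : ∃ m ∈ C, m 0 0 = 0 ∧ m 1 1 ≠ 0 := by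
    refine ⟨A * dg t * A, mul_mem (mul_mem hA (h t)) hA, ?_, ?_⟩ <;>
      simp [dg, mkSL_coe, mul_apply, Fin.sum_univ_two] <;> grind
  have hd' := det_SL2 m
  have a0 := a.ne_zero
  have a1 : (a : F) ≠ 1 := fun hc => ha (Units.ext hc)
  have h3 : m⁻¹ * dg a * m * dg a = U (m 0 1 * m 1 1 * (1 + (a : F)⁻¹ ^ 2)) := by
    rw [mul_assoc, mul_assoc, inv_mul_eq_iff_eq_mul]
    ext i j
    fin_cases i <;> fin_cases j <;> simp [dg, mkSL_coe, U_coe, mul_apply, Fin.sum_univ_two, m0] <;>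
      grind
  by_cases hs : s = 0
  · exact hs ▸ U_zero (R := F) ▸ one_mem _
  have h4 : m 0 1 * m 1 1 * (1 + (a : F)⁻¹ ^ 2) ≠ 0 := by grind
  obtain ⟨b, hb⟩ := exists_sq_unit (div_ne_zero hs h4)
  have := mul_mem (mul_mem (h b) (h3 ▸ mul_mem (mul_mem (mul_mem (inv_mem hm) (h a)) hm) (h a)))
    (inv_mem (h b))
  rwa [dg_conj, hb, div_mul_cancel₀ _ h4, mul_inv_cancel_right] at this

section Ring

variable {R : Type*} [Ring R] {ρ : SL(2, F) →* R}
  (h : ∀ g : SL(2, F), tr g = 1 → ρ g⁻¹ = -1 - ρ g)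
include h

theorem sq_of_tr {A : SL(2, F)} (hA : tr A = 1) : ρ A * ρ A = -1 - ρ A := by
  have h1 : ρ A * ρ A⁻¹ = 1 := by rw [← map_mul, mul_inv_cancel, map_one]
  rw [h A hA] at h1
  linear_combination (norm := noncomm_ring) -h1

theorem commute_tr {A B : SL(2, F)} (hA : tr A = 1) (hB : tr B = 1) :
    ρ A * (ρ (A * B) + ρ (A * B)⁻¹) = (ρ (A * B) + ρ (A * B)⁻¹) * ρ A := by
  rw [_root_.mul_inv_rev, map_mul, map_mul, h A hA, h B hB]
  linear_combination (norm := noncomm_ring) sq_of_tr h hA * ρ B - ρ B * sq_of_tr h hA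

theorem dg_U_key {t : Fˣ} (ht : t ≠ 1) (s : F) :
    (ρ (U (t ^ 2 * s)) - 1) * ρ (dg (t * t)) = -(ρ (U s) - 1) := by
  have c2 : (2 : F) = 0 := CharTwo.two_eq_zero
  have t0 := t.ne_zero
  have t1 : (t : F) + 1 ≠ 0 := fun hc => ht (Units.val_eq_one.1 (by grind))
  have h1 : ρ (dg t * U s) + ρ (dg t * U s)⁻¹ = ρ (dg t) + ρ (dg t)⁻¹ := by
    by_cases h0 : (t : F) ^ 2 + t + 1 = 0
    · rw [h, h] <;> simp [tr, dg, mkSL_coe, U_coe, mul_apply, Fin.sum_univ_two] <;> grind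
    obtain ⟨p, hp⟩ : ∃ p : F, p * (t + 1) = 1 := ⟨_, inv_mul_cancel₀ t1⟩
    let A := mkSL p 1 (p ^ 2 + p + 1) (p + 1) (by grind)
    let C : Subgroup SL(2, F) :=
      { carrier := {g | Commute (ρ g) (ρ (dg t) + ρ (dg t)⁻¹)}
        mul_mem' := fun ha hb => by simpa only [Set.mem_ofPred, map_mul] using ha.mul_left hb
        one_mem' := by simp
        inv_mem' := fun {g} hg => Commute.units_inv_left (u := ρ.toHomUnits g) hg }
    have h1 : ∀ a : Fˣ, Commute (dg a) (dg t) := fun a => by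
      rw [Commute, SemiconjBy, ← dg_mul, ← dg_mul, mul_comm]
    have h2 : A ∈ C := by
      have := commute_tr h (A := A⁻¹) (B := A * dg t) (by simp [tr, A, mkSL_coe]; grind) (by
        simp [tr, A, mkSL_coe, dg, mul_apply, Fin.sum_univ_two]; grind)
      rw [inv_mul_cancel_left] at this
      exact (inv_mem_iff (H := C)).1 this
    let u := U (s * t ^ 2 / (t + 1) ^ 2)
    have h3 : u ∈ C := U_mem_of_dg (fun a => ((h1 a).map ρ).add_right ((h1 a).inv_right.map ρ)) h2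
      (by simp [A, mkSL_coe]; grind) (by simp [A, mkSL_coe]) (by simp [A, mkSL_coe]; grind) ht _
    have h4 : dg t * U s = u * dg t * u⁻¹ := by
      rw [eq_mul_inv_iff_mul_eq]
      exact Subtype.ext (by simp [u, dg, mkSL_coe, U_coe]; grind)
    rw [h4, conj_inv, map_mul, map_mul, map_mul, map_mul, ← add_mul, ← mul_add, h3, mul_assoc,
      ← map_mul, mul_inv_cancel, map_one, mul_one]
  have h2 : ρ (dg t)⁻¹ * ρ (dg t) = 1 := by rw [← map_mul, inv_mul_cancel, map_one]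
  rw [_root_.mul_inv_rev, ← U_neg, CharTwo.neg_eq, dg_conj, map_mul, map_mul] at h1
  rw [dg_mul, map_mul]
  linear_combination (norm := noncomm_ring) h1 * ρ (dg t) - (ρ (U s) - 1) * h2

theorem two_U {t : Fˣ} (ht : t ≠ 1) (s : F) : (ρ (U s) - 1) * 2 = 0 := by
  have h1 := dg_U_key h (t := t * t) (fun hc => ht (Units.val_eq_one.1 (by
    have : (t : F) * t = 1 := congrArg Units.val hc
    have c2 : (2 : F) = 0 := CharTwo.two_eq_zero
    grind))) s
  have h2 := dg_U_key h ht (t ^ 2 * s)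
  rw [dg_mul, map_mul, Units.val_mul, mul_pow, mul_assoc ((t : F) ^ 2)] at h1
  linear_combination (norm := noncomm_ring) h1 - h2 * ρ (dg (t * t)) + dg_U_key h ht s

theorem U_sq {t : Fˣ} (ht : t ≠ 1) (a b : F) : (ρ (U a) - 1) * (ρ (U b) - 1) = 0 := by
  have h1 : (ρ (U a) - 1) * (ρ (U a) - 1) = 0 := by
    have : ρ (U a) * ρ (U a) = 1 := by rw [← map_mul, ← U_add, CharTwo.add_self_eq_zero, U_zero, map_one]
    linear_combination (norm := noncomm_ring) this - two_U h ht a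
  by_cases ha : a = 0
  · simp [ha, U_zero]
  by_cases hb : b = 0
  · simp [hb, U_zero]
  obtain ⟨r, hr⟩ := exists_sq_unit (div_ne_zero ha hb)
  rw [eq_div_iff hb] at hr
  by_cases h0 : r = 1
  · rwa [show b = a by simpa [h0] using hr]
  have := dg_U_key h h0 b
  rw [hr] at this
  linear_combination (norm := noncomm_ring) (ρ (U a) - 1) * this - h1 * ρ (dg (r * r))

theorem one_eq : ρ (U 1) * ρ (Lo 1) + ρ (Lo 1) * ρ (U 1) = -1 := by
  have := h (U 1 * Lo 1) (by simp [tr, U_coe, Lo_coe, CharTwo.add_self_eq_zero])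
  rw [_root_.mul_inv_rev, ← U_neg, ← Lo_neg, CharTwo.neg_eq, map_mul, map_mul] at this
  rw [this]; abel

end Ring

section Module

variable {W : Type*} [AddCommGroup W] [DistribMulAction SL(2, F) W]

theorem Quad.exists_decomp [Finite W] (h : Quad F W) (h1 : V0 F W ⊔ V1 F W = ⊤) :
    ∃ (k : ℕ) (Ψ : Fin k → (Fin 2 → F) →+ W), (∀ i, Function.Injective (Ψ i) ∧
      ∀ (g : SL(2, F)) v, Ψ i (g.1 *ᵥ v) = g • Ψ i v) ∧ iSupIndep (fun i => (Ψ i).range) ∧
        ⨆ i, (Ψ i).range = ⊤ := by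
  classical
  have : Finite ((Fin 2 → F) →+ W) := DFunLike.finite _
  obtain ⟨s, ⟨s1, s2⟩, s3⟩ := Set.Finite.exists_maximal (s := {s : Finset ((Fin 2 → F) →+ W) |
    (∀ Ψ ∈ s, Function.Injective Ψ ∧ ∀ (g : SL(2, F)) v, Ψ (g.1 *ᵥ v) = g • Ψ v) ∧
      s.SupIndep AddMonoidHom.range}) (Set.toFinite _) ⟨∅, by simp⟩
  have h2 : ∀ (g : SL(2, F)), ∀ v ∈ s.sup AddMonoidHom.range, g • v ∈ s.sup AddMonoidHom.range :=
    fun g => (Finset.sup_le (a := (s.sup AddMonoidHom.range).comap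
      (DistribSMul.toAddMonoidHom W g)) fun Ψ hΨ => by
        rintro _ ⟨v, rfl⟩
        exact Finset.le_sup (f := AddMonoidHom.range) hΨ ⟨_, (s1 Ψ hΨ).2 g v⟩)
  have h3 : V0 F W ≤ s.sup AddMonoidHom.range := fun x hx => by
    by_contra hc
    obtain ⟨Ψ, a1, rfl, a3⟩ := h.exists_hom hx fun h0 => hc (h0 ▸ zero_mem _)
    refine hc (Finset.le_sup (f := AddMonoidHom.range) (s3 (y := insert Ψ s)
      ⟨Finset.forall_mem_insert _ _ _ |>.2 ⟨⟨a1, a3⟩, s1⟩, s2.insert (AddSubgroup.disjoint_def.2 ?_)⟩ (Finset.subset_insert _ _)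
        (Finset.mem_insert_self _ _)) ⟨_, rfl⟩)
    rintro _ ⟨v, rfl⟩ hv
    by_contra h0
    obtain ⟨M, rfl⟩ := H8.exists_mulVec_eq (v := v) fun h4 => h0 (by simp [h4])
    exact hc (by simpa only [a3, inv_smul_smul] using h2 M⁻¹ _ hv)
  refine ⟨_, fun i => s.equivFin.symm i, fun i => s1 _ (s.equivFin.symm i).2,
    s2.independent.comp s.equivFin.symm.injective, ?_⟩
  rw [s.equivFin.symm.iSup_comp (g := fun Ψ : s => Ψ.1.range), iSup_subtype, ← Finset.sup_eq_iSup,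
    eq_top_iff, ← h1]
  exact sup_le h3 fun y hy => by simpa using h2 (wg F)⁻¹ _ (h3 (wg_mem_V0.2 hy))

theorem higman_mod (h : ∀ g : SL(2, F), tr g = 1 → ∀ v : W, v + g • v + g⁻¹ • v = 0)
    (h3 : ∀ v : W, 3 • v = 0 → v = 0) {t : Fˣ} (ht : t ≠ 1) :
    (∀ v : W, 2 • v = 0) ∧ Quad F W ∧ V0 F W ⊔ V1 F W = ⊤ := by
  have h' : ∀ g : SL(2, F), tr g = 1 → DistribMulAction.toAddMonoidEnd SL(2, F) W g⁻¹ =
      -1 - DistribMulAction.toAddMonoidEnd SL(2, F) W g := fun g hg => AddMonoidHom.ext fun v => by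
    show g⁻¹ • v = -v - g • v
    linear_combination (norm := abel) h g hg v
  have h1 : ∀ v : W, v + v ∈ V0 F W := fun v s =>
    sub_eq_zero.1 (DFunLike.congr_fun (one_add_one_eq_two (R := AddMonoid.End W) ▸ two_U h' ht s) v)
  have h2 : ∀ (s : F) (v : W), U s • v - v ∈ V0 F W := fun s v a =>
    sub_eq_zero.1 (DFunLike.congr_fun (U_sq h' ht a s) v)
  have h4 : ∀ v : W, (∀ g : SL(2, F), g • v = v) → v = 0 := fun v hv => h3 v (by
    have := h triY tr_triY v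
    rw [hv, hv] at this
    linear_combination (norm := abel) this)
  have hq : Quad F W := ⟨h4, fun y _ s => h2 s y⟩
  have h5 : ∀ v : W, v + v = 0 := fun v => hq.eq_zero (h1 v) (wg_mem_V0.1 (smul_add (wg F) v v ▸ h1 _))
  refine ⟨fun v => two_nsmul v ▸ h5 v, hq, eq_top_iff.2 fun v _ => ?_⟩
  have h6 : U (1 : F) • Lo (1 : F) • v + Lo (1 : F) • U (1 : F) • v = -v :=
    DFunLike.congr_fun (one_eq h') v
  refine AddSubgroup.mem_sup.2 ⟨_, h2 1 (Lo (1 : F) • v - v), Lo (1 : F) • (U (1 : F) • v - v) -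
    (U (1 : F) • v - v), wg_mem_V0.1 ?_, ?_⟩
  · rw [smul_sub, ← mul_smul, ← CharTwo.neg_eq (1 : F), ← U_mul_wg, mul_smul]
    exact h2 _ _
  · simp only [smul_sub]
    linear_combination (norm := abel) h6 - h5 (U (1 : F) • v) - h5 (Lo (1 : F) • v)

end Module

theorem isConj_of_tr {A : SL(2, F)} (hA : tr A = 1) : IsConj triY A := by
  have c2 : (2 : F) = 0 := CharTwo.two_eq_zero
  have key : ∀ B : SL(2, F), tr B = 1 → B 1 0 ≠ 0 → IsConj triY B := fun B h1 h2 => by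
    obtain ⟨t, ht⟩ := exists_sq_unit (inv_ne_zero h2)
    have hd := det_SL2 B
    refine isConj_iff.2 ⟨mkSL t (t * B 0 0) 0 (t * B 1 0) (by grind), mul_inv_eq_iff_eq_mul.2 ?_⟩
    unfold tr at h1
    ext i j
    fin_cases i <;> fin_cases j <;> simp [triY, mkSL_coe, mul_apply, Fin.sum_univ_two] <;> grind
  by_cases h0 : A 1 0 = 0
  · by_cases h1 : A 0 1 = 1
    · refine (key (wg F * A * (wg F)⁻¹) (by rwa [tr_conj]) ?_).trans (isConj_iff.2 ⟨_, rfl⟩).symm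
      simp [wg, mkSL_coe, adjugate_fin_two, mul_apply, vecMul, dotProduct, h1]
    · refine (key (Lo 1 * A * (Lo 1)⁻¹) (by rwa [tr_conj]) ?_).trans (isConj_iff.2 ⟨_, rfl⟩).symm
      unfold tr at hA
      simp [Lo_coe, adjugate_fin_two, mul_apply, vecMul, dotProduct, h0]
      grind
  · exact key A hA h0

theorem exists_ne_zero_one (h4 : 4 ≤ Nat.card F) : ∃ t : F, t ≠ 0 ∧ t ≠ 1 := by
  classical
  have := Fintype.ofFinite F
  obtain ⟨t, -, ht⟩ := Finset.exists_mem_notMem_of_card_lt_card (s := {0, 1}) (t := .univ (α := F))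
    (Finset.card_le_two.trans_lt (by rw [Finset.card_univ, ← Nat.card_eq_fintype_card]; omega))
  exact ⟨t, by simpa using ht⟩

theorem simple_SL2 (h4 : 4 ≤ Nat.card F) : IsSimpleGroup SL(2, F) := by
  have := ProjectiveSpecialLinearGroup.rank_two_simple (F := F) h4
  refine (MulEquiv.ofBijective (QuotientGroup.mk' (center SL(2, F))) ⟨(injective_iff_map_eq_one _).2
    fun A hA => ?_, QuotientGroup.mk'_surjective _⟩).isSimpleGroup
  exact (mk_eq_one_SL2.1 hA).elim id fun h => h.trans (Subtype.ext (CharTwo.neg_eq _))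

section Group

variable {G : Type*} [Group G] {Q : Subgroup G} [Q.Normal] {π : G →* SL(2, F)}
  (hs : Function.Surjective π) (hk : ∀ g, π g = 1 ↔ g ∈ Q)
include hs hk

theorem pow_three_of_fpf [Finite G] {x : G} (hx : orderOf x = 3)
    (hf : ∀ q ∈ Q, x * q * x⁻¹ = q → q = 1) {g : G} (hg : tr (π g) = 1) : g ^ 3 = 1 := by
  have c2 : (2 : F) = 0 := CharTwo.two_eq_zero
  have h1 : x ^ 3 = 1 := hx ▸ pow_orderOf_eq_one x
  have h2 : tr (π x) = 1 := by
    rcases tr_of_pow_three (A := π x) (by rw [← QuotientGroup.mk_pow, ← map_pow, h1, map_one]; rfl)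
      with h | h
    · rw [mk_eq_one_SL2, show (-1 : SL(2, F)) = 1 from Subtype.ext (CharTwo.neg_eq _), or_self,
        hk] at h
      simp [hf x h (by simp)] at hx
    · grind
  obtain ⟨k, hk'⟩ := isConj_iff.1 ((isConj_of_tr hg).symm.trans (isConj_of_tr h2))
  obtain ⟨k, rfl⟩ := hs k
  have h3 : Function.Injective fun y : Q => (⟨x⁻¹ * (y : G)⁻¹ * x * y, mul_mem
      (‹Q.Normal›.conj_mem' _ (inv_mem y.2) x) y.2⟩ : Q) := fun y z h => by
    have h4 : x⁻¹ * (y : G)⁻¹ * x * y = x⁻¹ * (z : G)⁻¹ * x * z := congrArg Subtype.val h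
    refine Subtype.ext (mul_inv_eq_one.1 (hf _ (mul_mem y.2 (inv_mem z.2)) ?_))
    calc _ = y * x * (x⁻¹ * (y : G)⁻¹ * x * y) * (z : G)⁻¹ * x⁻¹ := by group
      _ = _ := by rw [h4]; group
  obtain ⟨y, hy⟩ := Finite.surjective_of_injective h3 ⟨x⁻¹ * (k * g * k⁻¹), (hk _).1 (by simp [hk'])⟩
  have h5 : x⁻¹ * (y : G)⁻¹ * x * y = x⁻¹ * (k * g * k⁻¹) := congrArg Subtype.val hy
  have h4 : g = (y * k)⁻¹ * x * (y * k)⁻¹⁻¹ :=
    calc g = k⁻¹ * x * (x⁻¹ * (k * g * k⁻¹)) * k := by group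
      _ = _ := by rw [← h5]; group
  rw [h4, conj_pow, h1]; simp

variable (h : ∀ g, tr (π g) = 1 → g ^ 3 = 1)
include h

theorem mul_conj_conj {g y : G} (hg : tr (π g) = 1) (hy : y ∈ Q) :
    y * (g * y * g⁻¹) * (g⁻¹ * y * g) = 1 := by
  have h1 := h (y * g) (by rw [map_mul, (hk y).2 hy, one_mul, hg])
  calc _ = y * (g * y * (g⁻¹ * g⁻¹ * g ^ 3) * y * g) := by rw [h g hg]; group
    _ = _ := by rw [← h1]; simp only [pow_succ]; group

theorem comm_conj {g y : G} (hg : tr (π g) = 1) (hy : y ∈ Q) : ⁅y, g * y * g⁻¹⁆ = 1 := by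
  have h1 := mul_conj_conj hs hk h hg hy
  have h2 := mul_conj_conj hs hk h (g := g⁻¹) (by rwa [map_inv, tr_inv]) hy
  rw [inv_inv, mul_assoc, mul_eq_one_iff_eq_inv] at h2
  rw [mul_eq_one_iff_eq_inv] at h1
  rw [commutatorElement_def, h1]
  nth_rw 2 [h2]
  group

theorem commutator_eq_bot_of_class_two (h4 : 4 ≤ Nat.card F) (hc : ⁅⁅Q, Q⁆, Q⁆ = ⊥)
    (h3 : ∀ y ∈ Q, y ^ 3 = 1 → y = 1) : ⁅Q, Q⁆ = ⊥ := by
  have hn : Q.Normal := ‹_›
  rw [commutator_eq_bot_iff_le_centralizer] at hc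
  have c1 : ∀ {y z w}, y ∈ Q → z ∈ Q → w ∈ Q → w * ⁅y, z⁆ * w⁻¹ = ⁅y, z⁆ := fun hy hz hw =>
    mul_inv_eq_iff_eq_mul.2 (hc (commutator_mem_commutator hy hz) _ hw)
  have c2 : ∀ {g y z}, tr (π g) = 1 → y ∈ Q → z ∈ Q → ⁅y, g * z * g⁻¹⁆ = ⁅g * y * g⁻¹, z⁆ := by
    intro g y z hg hy hz
    have h1 := comm_conj hs hk h hg (mul_mem hy hz)
    have h2 := comm_conj hs hk h hg hy
    have h5 := comm_conj hs hk h hg hz
    rw [← conj_mul] at h1
    have hy' := hn.conj_mem y hy g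
    have hz' := hn.conj_mem z hz g
    generalize g * y * g⁻¹ = y' at *
    generalize g * z * g⁻¹ = z' at *
    rw [show ⁅y * z, y' * z'⁆ = y * (⁅z, y'⁆ * (y' * ⁅z, z'⁆ * y'⁻¹)) * y⁻¹ *
      (⁅y, y'⁆ * (y' * ⁅y, z'⁆ * y'⁻¹)) by simp only [commutatorElement_def]; group, h2, h5,
      c1 hy hz' hy'] at h1
    simp only [mul_one, mul_inv_cancel, one_mul, c1 hz hy' hy] at h1
    rw [eq_inv_of_mul_eq_one_right h1, commutatorElement_inv]
  have c3 : ∀ {g y z}, tr (π g) = 1 → y ∈ Q → z ∈ Q → g * ⁅y, z⁆ * g⁻¹ = ⁅y, g⁻¹ * z * g⁆ := by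
    intro g y z hg hy hz
    rw [conjugate_commutatorElement, ← c2 hg hy (hn.conj_mem z hz g)]
    congr 1
    calc _ = g⁻¹ * g ^ 3 * z * (g ^ 3)⁻¹ * g := by simp [pow_succ, mul_assoc]
      _ = _ := by rw [h g hg]; group
  obtain ⟨t, t0, t1⟩ := exists_ne_zero_one h4
  obtain ⟨a, ha⟩ := hs triY
  obtain ⟨b, hb⟩ := hs (mkSL 0 (-t) t⁻¹ 1 (by simp [t0]))
  have a1 : tr (π a) = 1 := ha ▸ tr_triY
  have b1 : tr (π b) = 1 := by simp [hb, tr, mkSL_coe]
  have h5 : (a⁻¹ * b * a)⁻¹ * (a * b * a⁻¹) ∈ centralizer ((⁅Q, Q⁆ : Subgroup G) : Set G) := by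
    refine fun w hw => (mem_centralizer_singleton_iff.1 (commutator_le.2 (fun y hy z hz => ?_) hw))
    have h6 := c3 (g := a⁻¹ * b * a⁻¹⁻¹) (by rwa [map_mul, map_mul, map_inv _ a⁻¹, tr_conj]) hy hz
    have h7 := c3 a1 hy (hn.conj_mem' _ (hn.conj_mem' z hz a⁻¹) b)
    rw [← c3 b1 hy (hn.conj_mem' z hz _), ← c3 (by rwa [map_inv, tr_inv]) hy hz] at h7
    rw [mem_centralizer_singleton_iff]
    calc _ = (a⁻¹ * b * a)⁻¹ * (a⁻¹ * b * a⁻¹⁻¹ * ⁅y, z⁆ * (a⁻¹ * b * a⁻¹⁻¹)⁻¹) * (a * b * a⁻¹) := by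
          group
      _ = (a⁻¹ * b * a)⁻¹ * (a * (b * (a⁻¹ * ⁅y, z⁆ * a⁻¹⁻¹) * b⁻¹) * a⁻¹) * (a * b * a⁻¹) := by
          rw [h6, h7]; group
      _ = _ := by group
  have := simple_SL2 h4
  rcases (Normal.map inferInstance π hs : (map π (centralizer
    ((⁅Q, Q⁆ : Subgroup G) : Set G))).Normal).eq_bot_or_eq_top with h6 | h6
  · have h7 : _ = (1 : SL(2, F)) := h6.le (mem_map_of_mem π h5)
    simp only [map_mul, map_inv, ha, hb, inv_mul_eq_one] at h7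
    have h8 := congrArg (fun A : SL(2, F) => A 0 0) h7
    have c2 : (2 : F) = 0 := CharTwo.two_eq_zero
    simp [triY, mkSL_coe, adjugate_fin_two, mul_apply] at h8
    grind
  · obtain ⟨c, c3, c4⟩ := h6.ge (mem_top triY)
    refine eq_bot_iff.2 fun w hw => h3 w (commutator_le_left _ _ hw) ?_
    have h7 := h (w * c) (by rw [map_mul, (hk w).2 (commutator_le_left _ _ hw), one_mul, c4, tr_triY])
    rwa [Commute.mul_pow (c3 w hw), h c (c4 ▸ tr_triY), mul_one] at h7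

omit hs hk h in
theorem eq_one_of_pow_three (hQ : IsPGroup 2 Q) {y : G} (hy : y ∈ Q) (h : y ^ 3 = 1) : y = 1 := by
  obtain ⟨k, hk⟩ := hQ ⟨y, hy⟩
  have := orderOf_dvd_of_pow_eq_one (congrArg Subtype.val hk : y ^ 2 ^ k = 1)
  exact orderOf_eq_one_iff.1 (Nat.eq_one_of_dvd_coprimes ((by norm_num : Nat.Coprime 3 2).pow_right k)
    (orderOf_dvd_of_pow_eq_one h) this)

theorem commutator_eq_bot [Finite G] (h4 : 4 ≤ Nat.card F) (hQ : IsPGroup 2 Q) : ⁅Q, Q⁆ = ⊥ := by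
  by_contra hc
  let M := ⁅⁅Q, Q⁆, Q⁆
  have hM : M ≤ Q := commutator_le_right _ _
  let f := QuotientGroup.mk' M
  have f1 : Function.Surjective f := QuotientGroup.mk'_surjective M
  have := Normal.map ‹Q.Normal› f f1
  have := commutator_eq_bot_of_class_two (Q := Q.map f)
    (π := QuotientGroup.lift M π fun g hg => (hk g).2 (hM hg))
    (fun g => (hs g).imp' f fun _ => id) (f1.forall.2 fun g => (hk g).trans (by
      rw [← mem_comap, comap_map_eq_self (by simpa [f])]))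
    (f1.forall.2 fun g hg => by rw [← map_pow, h g hg, map_one]) h4
    (by rw [← map_commutator, ← map_commutator, Subgroup.map_eq_bot_iff]; simp [f, M])
    fun y hy => eq_one_of_pow_three (hQ.map f) hy
  rw [← map_commutator, Subgroup.map_eq_bot_iff, QuotientGroup.ker_mk'] at this
  exact (H1.commutator_lt_of_isPGroup hQ (hQ.to_le (commutator_le_left _ _))
    (by simp [normalizer_eq_top]) hc).not_ge this

end Group

end Cfsg.H3.QM
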