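import Cfsg.Agent.H3.NatMod

/-! Overgroups of a natural `SL₂` in the automorphism group of its module. -/

set_option autoImplicit false
set_option linter.unusedSectionVars false

namespace Cfsg.H3

open Subgroup Matrix
open scoped MatrixGroups commutatorElement

variable {G : Type*} [Group G] {F : Type*} [Field F]

theorem ringHom_eq_of_quad {P : F → Prop} {σ τ : F →+* F} (h1 : ∀ c, σ c = c ↔ P c)
    (h2 : ∀ c, τ c = c ↔ P c) (h3 : ∀ c, P (σ c - c)) (h4 : ∀ c, P (τ c - c)) {c : F}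
    (hc : ¬ P c) : (2 : F) = 0 ∧ σ c = τ c := by
  have a1 := (h1 _).2 (h3 c)
  have a2 := (h1 _).2 (h3 (c * c))
  have a3 := (h2 _).2 (h3 c)
  have a4 := (h2 _).2 (h4 c)
  have a5 : σ c - c ≠ 0 := fun h => hc ((h1 c).1 (sub_eq_zero.1 h))
  have a6 : τ c - c ≠ 0 := fun h => hc ((h2 c).1 (sub_eq_zero.1 h))
  simp only [map_sub, map_mul] at a1 a2 a3 a4
  have h : (2 : F) = 0 := by
    have : 2 * (σ c - c) ^ 2 = 0 := by grind
    simpa [a5] using this
  have a7 := (h2 _).2 ((h1 (c * σ c)).1 (by rw [map_mul]; grind))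
  rw [map_mul] at a7
  have : (τ c - c) * (σ c - τ c) = 0 := by grind
  exact ⟨h, sub_eq_zero.1 ((mul_eq_zero.1 this).resolve_left a6)⟩

namespace NatMod

variable {V L K T : Subgroup G} (N : NatMod F V L)

theorem exists_act {s : G} (hs : s ∈ normalizer (V : Set G)) :
    ∃ f : (Fin 2 → F) →+ (Fin 2 → F), ∀ v, s * N.E v * s⁻¹ = N.E (f v) := by
  choose f hf using fun v => (N.mem_V _).1 ((mem_normalizer_iff.1 hs _).1 (N.E_mem v))
  exact ⟨AddMonoidHom.mk' f fun u v => N.E_inj (by simp only [N.E_add, hf]; group),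
    fun v => (hf v).symm⟩

theorem act_mulVec {s : G} {f : (Fin 2 → F) → (Fin 2 → F)} (hf : ∀ v, s * N.E v * s⁻¹ = N.E (f v))
    {A B : SL(2, F)} (h : N.ρ B = s * N.ρ A * s⁻¹) (v) : f (A.1 *ᵥ v) = B.1 *ᵥ f v :=
  N.E_inj (by rw [← hf, ← N.conj, ← N.conj, ← hf, h]; group)

theorem eq_of_conj_eq (hf : K ⊓ centralizer (V : Set G) = ⊥) {x y : G} (hx : x ∈ K) (hy : y ∈ K)
    (h : ∀ v ∈ V, x * v * x⁻¹ = y * v * y⁻¹) : x = y :=
  (inv_mul_eq_one.1 (mem_bot.1 (hf.le ⟨K.mul_mem (K.inv_mem hy) hx, fun v hv => by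
    rw [← mul_inv_eq_iff_eq_mul.1 (show y⁻¹ * x * v * (y⁻¹ * x)⁻¹ = v by
      rw [show y⁻¹ * x * v * (y⁻¹ * x)⁻¹ = y⁻¹ * (x * v * x⁻¹) * y by group, h v hv]; group)]⟩))).symm

theorem exists_U_of_centralizes {p : ℕ} [Fact p.Prime] [CharP F p]
    (hf : K ⊓ centralizer (V : Set G) = ⊥) (hL : L ≤ K) {s : G} (hK : s ∈ K)
    (hV : s ∈ normalizer (V : Set G)) (hs : s ∈ normalizer (L : Set G)) {k : ℕ}
    (hk : s ^ p ^ k = 1) (hc : s ∈ centralizer (N.line : Set G)) : ∃ b, N.ρ (U b) = s := by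
  obtain ⟨f, h⟩ := N.exists_act hV
  have h1 : ∀ a, f ![a, 0] = ![a, 0] := fun a => N.E_inj (by
    rw [← h, ← hc _ ⟨a, rfl⟩, mul_inv_cancel_right])
  have h2 : ∀ v, f v = ![v 0, 0] + f ![0, v 1] := fun v => by
    rw [← h1, ← map_add]; congr 1; ext i; fin_cases i <;> simp
  obtain ⟨A, hA⟩ := (N.mem_L _).1 ((mem_normalizer_iff.1 hs _).1 (N.ρ_mem (U 1)))
  obtain ⟨B, hB⟩ := (N.mem_L _).1 ((mem_normalizer_iff.1 hs _).1 (N.ρ_mem (Lo 1)))
  have h3 : ∀ v, v 1 = A 0 1 * f v 1 := fun v => by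
    have a1 := congrFun (N.act_mulVec h hA ![1, 0]) 0
    have a2 := congrFun (N.act_mulVec h hA v) 0
    rw [U_mulVec] at a1 a2
    rw [h2, h2 v] at a2
    simp [h1, vecHead, vecTail] at a1 a2
    rw [h2 v]
    simp
    grind
  have h4 : ∀ (m : ℕ) v, s ^ m * N.E v * (s ^ m)⁻¹ = N.E (f^[m] v) ∧
      v 1 = A 0 1 ^ m * f^[m] v 1 := fun m v => by
    induction m with
    | zero => simp
    | succ m ih =>
      rw [Function.iterate_succ_apply', ← h, ← ih.1, pow_succ (A 0 1), mul_assoc (A 0 1 ^ m), ← h3]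
      exact ⟨by group, ih.2⟩
  have h5 : A 0 1 = 1 := by
    obtain ⟨a1, a2⟩ := h4 (p ^ k) ![0, 1]
    rw [hk, one_mul, inv_one, mul_one] at a1
    rw [← N.E_inj a1] at a2
    have : (A 0 1 - 1) ^ p ^ k = 0 := by rw [sub_pow_char_pow]; simpa [sub_eq_zero] using a2.symm
    exact sub_eq_zero.1 (pow_eq_zero_iff (pow_ne_zero _ (Fact.out : p.Prime).ne_zero) |>.1 this)
  simp only [h5, one_mul] at h3
  have h6 : ∀ y, f ![0, y] 0 = f ![0, 1] 0 * y := fun y => by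
    have a1 := congrFun (N.act_mulVec h hB ![1, 0]) 1
    have a2 := congrFun (N.act_mulVec h hB ![0, 1]) 1
    have a3 := congrFun (N.act_mulVec h hB ![0, y]) 1
    rw [Lo_mulVec] at a1 a2 a3
    simp [h1, ← h3, mulVec, dotProduct] at a1 a2 a3
    grind
  refine ⟨f ![0, 1] 0, eq_of_conj_eq hf (hL (N.ρ_mem _)) hK fun v hv => ?_⟩
  obtain ⟨v, rfl⟩ := (N.mem_V _).1 hv
  rw [N.conj, h, U_mulVec]
  congr 1
  ext i; fin_cases i
  · rw [h2 v]; simp [h6 (v 1)]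
  · simpa using h3 v

theorem exists_ringHom (hT : ∀ x, x ∈ T ↔ ∃ b, N.ρ (U b) = x) {s : G}
    (hV : s ∈ normalizer (V : Set G)) (hs : s ∈ normalizer (T : Set G)) {a : F} (ha : a ≠ 0)
    (hsa : s * N.E ![a, 0] * s⁻¹ = N.E ![a, 0]) :
    ∃ σ : F →+* F, ∀ c, s * N.E ![c * a, 0] * s⁻¹ = N.E ![σ c * a, 0] := by
  obtain ⟨f, h⟩ := N.exists_act hV
  choose τ hτ using fun b => (hT _).1 ((mem_normalizer_iff.1 hs _).1 ((hT _).2 ⟨b, rfl⟩))
  have h1 : ∀ b y, f ![b * y, 0] = ![τ b * f ![0, y] 1, 0] := fun b y => by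
    have := N.act_mulVec h (hτ b) ![0, y]
    rw [U_mulVec, U_mulVec, show (![![0, y] 0 + b * ![0, y] 1, ![0, y] 1] : Fin 2 → F) =
      ![b * y, 0] + ![0, y] by simp, map_add] at this
    ext i; fin_cases i
    · simpa [add_comm (f ![b * y, 0] 0)] using congrFun this 0
    · simpa using congrFun this 1
  have h2 : f ![a, 0] = ![a, 0] := N.E_inj (by rw [← h, hsa])
  have h3 : ∀ c, f ![c, 0] = ![f ![c, 0] 0, 0] := fun c => by
    have := h1 c 1
    rw [mul_one] at this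
    rw [this]; simp
  have h4 : ∀ b y, f ![b * y, 0] 0 * f ![1, 0] 0 = f ![b, 0] 0 * f ![y, 0] 0 := fun b y => by
    have a1 := h1 b 1
    have a2 := h1 1 y
    have a3 := h1 1 1
    simp only [mul_one, one_mul] at a1 a2 a3
    rw [h1, a1, a2, a3]; simp; ring
  have h5 : f ![1, 0] 0 ≠ 0 := fun hc => by
    have := h ![1, 0]
    rw [h3, hc, (N.E_eq_one (v := ![0, 0])).2 (by simp), conj_eq_one_iff, N.E_eq_one] at this
    simp at this
  refine ⟨{ toFun := fun c => f ![c * a, 0] 0 / a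
            map_one' := by simp [h2, ha]
            map_mul' := fun c d => ?_
            map_zero' := by simp [show (![0, 0] : Fin 2 → F) = 0 by simp]
            map_add' := fun c d => ?_ }, fun c => ?_⟩
  · have a1 := h4 c (d * a)
    have a2 := h4 c a
    rw [h2] at a2
    rw [mul_assoc]
    simp at a2
    field_simp
    grind
  · rw [← add_div, ← Pi.add_apply, ← map_add]; simp [add_mul]
  · rw [h, h3]; simp [ha]

theorem conj_U_mul_inv_mem (b : F) {v : G} (hv : v ∈ V) :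
    N.ρ (U b) * v * (N.ρ (U b))⁻¹ * v⁻¹ ∈ N.line := by
  obtain ⟨v, rfl⟩ := (N.mem_V _).1 hv
  rw [N.conj, ← N.E_sub, N.E_mem_line, U_mulVec]; simp

theorem normalizer_le [Finite G] {p : ℕ} [Fact p.Prime] [CharP F p]
    (hT : ∀ x, x ∈ T ↔ ∃ b, N.ρ (U b) = x) (hf : K ⊓ centralizer (V : Set G) = ⊥) (hL : L ≤ K)
    (hV : K ≤ normalizer (V : Set G)) {S : Subgroup G} (hS : H8.IsSyl p S K)
    (hSL : S ≤ normalizer (L : Set G)) (hST : S ⊓ L = T) :
    K ⊓ normalizer (N.line : Set G) ≤ normalizer (T : Set G) := by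
  have h1 : V ⊓ centralizer (T : Set G) = N.line :=
    N.inf_centralizer (fun x hx => (hT x).1 hx) ((hT _).2 ⟨1, rfl⟩) N.U_one_ne_one
  have h2 : T ≤ centralizer (N.line : Set G) := le_centralizer_iff.1 (h1.ge.trans inf_le_right)
  have h3 : S ≤ normalizer (T : Set G) := hST ▸ H7.le_normalizer_inf le_normalizer hSL
  have h4 : S ≤ normalizer (N.line : Set G) :=
    h1 ▸ H7.le_normalizer_inf (hS.le.trans hV) (h3.trans (H7.normalizer_le_normalizer_centralizer _))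
  have hTK : T ≤ K := hST.ge.trans (inf_le_right.trans hL)
  have h5 : H8.IsSyl p T (K ⊓ centralizer (N.line : Set G)) := by
    have := hS.inf (K := K ⊓ centralizer (N.line : Set G)) inf_le_left (H7.le_normalizer_inf
      (hS.le.trans le_normalizer) (h4.trans (H7.normalizer_le_normalizer_centralizer _)))
    rwa [show S ⊓ (K ⊓ centralizer (N.line : Set G)) = T from le_antisymm ?_
      (le_inf (hST.ge.trans inf_le_left) (le_inf hTK h2))] at this
    rintro s ⟨a1, a2, a3⟩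
    obtain ⟨k, hk⟩ := H8.isPGroup_iff_forall.1 hS.isPGroup s a1
    exact (hT _).2 (N.exists_U_of_centralizes hf hL a2 (hV a2) (hSL a1) hk a3)
  intro h hh
  obtain ⟨hK, hW⟩ := mem_inf.1 hh
  have h6 : H7.cj h T ≤ K ⊓ centralizer (N.line : Set G) := le_inf (H7.cj_le_of_le' hK hTK) (by
    rw [← H7.cj_eq_of_mem_normalizer hW, ← H7.cj_centralizer]; exact H7.cj_mono h2)
  refine H7.mem_normalizer_of_cj_le (h5.le_of_le_normalizer (H7.isPGroup_cj h5.isPGroup) h6 ?_)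
  refine (le_centralizer_iff.1 fun x hx y hy => ?_).trans (centralizer_le_normalizer _)
  have a1 := mem_inf.1 (h6 hy)
  refine eq_of_conj_eq hf (mul_mem a1.1 (hTK hx)) (mul_mem (hTK hx) a1.1) fun v hv => ?_
  have a2 : x * v * x⁻¹ * v⁻¹ ∈ N.line := by
    obtain ⟨b, rfl⟩ := (hT x).1 hx
    exact N.conj_U_mul_inv_mem b hv
  have a3 : y * v * y⁻¹ * v⁻¹ ∈ N.line := by
    obtain ⟨b, hb⟩ := (hT _).1 (H7.mem_cj.1 hy)
    have := (mem_normalizer_iff.1 hW _).1 (N.conj_U_mul_inv_mem b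
      ((mem_normalizer_iff''.1 (hV hK) _).1 hv))
    rw [hb] at this
    convert this using 1
    group
  calc y * x * v * (y * x)⁻¹ = y * (x * v * x⁻¹ * v⁻¹) * y⁻¹ * (y * v * y⁻¹ * v⁻¹) * v := by group
    _ = x * (y * v * y⁻¹ * v⁻¹) * x⁻¹ * (x * v * x⁻¹ * v⁻¹) * v := by
      rw [← a1.2 _ a2, ← h2 hx _ a3, mul_inv_cancel_right, mul_inv_cancel_right,
        N.comm (N.line_le a2) (N.line_le a3)]
    _ = _ := by group

theorem le_normalizer_of_forall [Finite G] (hT : ∀ x, x ∈ T ↔ ∃ b, N.ρ (U b) = x) (hL : L ≤ K)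
    (h : ∀ g ∈ K, H7.cj g T ≤ L) : K ≤ normalizer (L : Set G) := fun g hg =>
  H7.mem_normalizer_of_conj_mem fun x hx => by
    obtain ⟨A, rfl⟩ := (N.mem_L _).1 hx
    induction A using SL2_induction with
    | hU b => exact h g hg (H7.conj_mem_cj ((hT _).2 ⟨b, rfl⟩))
    | hL b =>
      have := h _ (mul_mem hg (hL (N.ρ_mem (mkSL 0 1 (-1) 0 (by simp)))))
        (H7.conj_mem_cj ((hT _).2 ⟨-b, rfl⟩))
      rwa [show ∀ a b c : G, a * b * c * (a * b)⁻¹ = a * (b * c * b⁻¹) * a⁻¹ from fun _ _ _ => by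
        group, ← map_inv, ← map_mul, ← map_mul, show mkSL 0 1 (-1) 0 _ * U (-b) * _ = Lo b from
          mul_inv_eq_iff_eq_mul.2 (Subtype.ext (by simp [mkSL_coe, U_coe, Lo_coe]))] at this
    | hmul A B hA hB =>
      have := mul_mem (hA (N.ρ_mem _)) (hB (N.ρ_mem _))
      rwa [conj_mul, ← map_mul] at this

theorem normal_or_four [Finite G] [Fintype F] (hT : ∀ x, x ∈ T ↔ ∃ b, N.ρ (U b) = x) (hL : L ≤ K)
    (hV : K ≤ normalizer (V : Set G))
    (hN : K ⊓ normalizer (N.line : Set G) ≤ normalizer (T : Set G)) :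
    K ≤ normalizer (L : Set G) ∨ (2 : F) = 0 ∧ ∃ w : F, w ^ 2 = w + 1 ∧
      ∀ c : F, c = 0 ∨ c = 1 ∨ c = w ∨ c = w + 1 := by
  by_cases hD : ∀ g ∈ K, H7.cj g N.line ≠ N.line → H7.cj g N.line ⊓ N.line = ⊥
  · refine .inl (N.le_normalizer_of_forall hT hL fun g hg => ?_)
    obtain ⟨v, hv⟩ := (N.mem_V _).1 ((mem_normalizer_iff.1 (hV hg) _).1 (N.E_mem ![1, 0]))
    have hv0 : v ≠ 0 := fun h => by
      rw [h, N.E_zero, eq_comm, conj_eq_one_iff, N.E_eq_one] at hv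
      simp at hv
    obtain ⟨A, hA⟩ : ∃ A : SL(2, F), A.1 *ᵥ v = ![1, 0] := by
      by_cases h : v 0 = 0
      · have h1 : v 1 ≠ 0 := fun h1 => hv0 (by rw [← vec_eta v, h, h1]; simp)
        exact ⟨mkSL 0 (v 1)⁻¹ (-v 1) 0 (by simp [h1]), by
          simp [mkSL_coe, vecHead, vecTail, h, h1]⟩
      · exact ⟨mkSL (v 0)⁻¹ 0 (-v 1) (v 0) (by simp [h]), by
          simp [mkSL_coe, vecHead, vecTail, h, mul_comm (v 1)]⟩
    have h1 := mul_mem (hL (N.ρ_mem A)) hg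
    have h2 : H7.cj (N.ρ A * g) N.line = N.line := by
      by_contra hc
      have := (hD _ h1 hc).le ⟨H7.conj_mem_cj (N.mem_line.2 ⟨1, rfl⟩), 1,
        ((congrArg N.E hA.symm).trans (N.conj A v).symm).trans (by rw [hv]; group)⟩
      rw [mem_bot, conj_eq_one_iff, N.E_eq_one] at this
      simp at this
    have h3 := H7.cj_eq_of_mem_normalizer (hN ⟨h1, H7.mem_normalizer_iff_cj.2 h2⟩)
    rw [← inv_mul_cancel_left (N.ρ A) g, H7.cj_mul, h3]
    refine H7.cj_le_of_le' (inv_mem (N.ρ_mem A)) fun x hx => ?_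
    obtain ⟨b, rfl⟩ := (hT x).1 hx
    exact N.ρ_mem _
  right
  push Not at hD
  obtain ⟨g₀, hg₀, a1, a2⟩ := hD
  obtain ⟨g, ⟨hg, h1⟩, hmax⟩ := Set.exists_max_image {g | g ∈ K ∧ H7.cj g N.line ≠ N.line}
    (fun g => Nat.card ↥(H7.cj g N.line ⊓ N.line)) (Set.toFinite _) ⟨g₀, hg₀, a1⟩
  set W := H7.cj g N.line with hW
  obtain ⟨_, ⟨h2, a, rfl⟩, h3⟩ := (W ⊓ N.line).bot_or_exists_ne_one.resolve_left fun h => by
    have := hmax g₀ ⟨hg₀, a1⟩
    rw [h, card_bot] at this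
    exact a2 (eq_bot_of_card_le _ this)
  have ha : a ≠ 0 := fun h => h3 (N.E_eq_one.2 (by simp [h]))
  obtain ⟨_, ⟨z, rfl⟩, hz⟩ := SetLike.not_le_iff_exists.1 fun h : N.line ≤ W =>
    h1 (eq_of_le_of_card_ge h (H7.card_cj _ _).le).symm
  obtain ⟨c₀, rfl⟩ : ∃ c, z = c * a := ⟨z / a, by field_simp⟩
  have key : ∀ c, c ≠ 0 → N.E ![c * a, 0] ∈ W → ∃ σ : F →+* F,
      (∀ t, σ t = t ↔ N.E ![t * a, 0] ∈ W) ∧ (∀ t, N.E ![(σ t - t) * a, 0] ∈ W) ∧
      σ c₀ = c₀ + c := by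
    intro c hc hcW
    obtain ⟨v, hv⟩ := (N.mem_V _).1 ((mem_normalizer_iff''.1 (hV hg) _).1 (N.E_mem ![c₀ * a, 0]))
    have hv1 : v 1 ≠ 0 := fun h => hz (H7.mem_cj.2 (hv ▸ N.E_mem_line.2 h))
    obtain ⟨d, hd⟩ := N.mem_line.1 (H7.mem_cj.1 hcW)
    have hd0 : d / v 1 ≠ 0 := div_ne_zero (fun h => by
      rw [h, (N.E_eq_one (v := ![0, 0])).2 (by simp), eq_comm, ← inv_inv g, inv_inv g⁻¹, conj_eq_one_iff,
        N.E_eq_one] at hd
      simp [hc, ha] at hd) hv1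
    set x := g * N.ρ (U (d / v 1)) * g⁻¹ with hx
    have hxK : x ∈ K := mul_mem (mul_mem hg (hL (N.ρ_mem _))) (inv_mem hg)
    have b1 : ∀ u ∈ V, x * u * x⁻¹ = u ↔ u ∈ W := fun u hu => by
      obtain ⟨y, hy⟩ := (N.mem_V _).1 ((mem_normalizer_iff''.1 (hV hg) _).1 hu)
      rw [hW, H7.mem_cj, ← hy, N.E_mem_line, show x * u * x⁻¹ = g * (N.ρ (U (d / v 1)) *
        (g⁻¹ * u * g) * (N.ρ (U (d / v 1)))⁻¹) * g⁻¹ by rw [hx]; group, ← hy, N.conj,
        mul_inv_eq_iff_eq_mul, ← eq_inv_mul_iff_mul_eq, ← mul_assoc, ← hy, N.E_inj.eq_iff, U_mulVec]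
      exact ⟨fun h => by simpa [hd0] using congrFun h 0, fun h => by simpa [h] using vec_eta y⟩
    have b2 : ∀ u ∈ V, x * u * x⁻¹ * u⁻¹ ∈ W := fun u hu => by
      have := H7.conj_mem_cj (g := g) (N.conj_U_mul_inv_mem (d / v 1)
        ((mem_normalizer_iff''.1 (hV hg) _).1 hu))
      convert this using 1
      rw [hx]; group
    have b3 : x * N.E ![c₀ * a, 0] * x⁻¹ = N.E ![(c₀ + c) * a, 0] := by
      rw [show x * N.E ![c₀ * a, 0] * x⁻¹ = g * (N.ρ (U (d / v 1)) *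
        (g⁻¹ * N.E ![c₀ * a, 0] * g) * (N.ρ (U (d / v 1)))⁻¹) * g⁻¹ by rw [hx]; group, ← hv, N.conj,
        U_mulVec, show (![v 0 + d / v 1 * v 1, v 1] : Fin 2 → F) = v + ![d, 0] by
          ext i; fin_cases i <;> simp [hv1], N.E_add, hv, hd, show
          (![(c₀ + c) * a, 0] : Fin 2 → F) = ![c₀ * a, 0] + ![c * a, 0] by simp [add_mul], N.E_add]
      group
    have b4 : H7.cj x N.line = N.line := by
      by_contra hc
      refine (hmax x ⟨hxK, hc⟩).not_gt (H8.card_lt_of_lt (lt_of_le_of_ne (fun u hu =>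
        ⟨(b1 u (N.line_le hu.2)).2 hu.1 ▸ H7.conj_mem_cj hu.2, hu.2⟩) fun h => hz ?_))
      have := (h.ge ⟨H7.conj_mem_cj (N.mem_line.2 ⟨c₀ * a, rfl⟩), _, b3.symm⟩).1
      rw [b3, show (![(c₀ + c) * a, 0] : Fin 2 → F) = ![c₀ * a, 0] + ![c * a, 0] by simp [add_mul],
        N.E_add] at this
      exact (W.mul_mem_cancel_right hcW).1 this
    obtain ⟨σ, hσ⟩ := N.exists_ringHom hT (hV hxK) (hN ⟨hxK, H7.mem_normalizer_iff_cj.2 b4⟩) ha
      ((b1 _ (N.E_mem _)).2 h2)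
    refine ⟨σ, fun t => ?_, fun t => ?_, ?_⟩
    · rw [← b1 _ (N.E_mem _), hσ, N.E_inj.eq_iff]; simp [ha]
    · have := b2 _ (N.E_mem ![t * a, 0])
      rw [hσ, ← N.E_sub] at this
      convert this using 2
      simp [sub_mul]
    · simpa [ha] using congrFun (N.E_inj ((hσ c₀).symm.trans b3)) 0
  obtain ⟨σ, s1, s2, s3⟩ := key 1 one_ne_zero (by simpa using h2)
  have h4 : ∀ c, σ c = c → c = 0 ∨ c = 1 := fun c hc => or_iff_not_imp_left.2 fun hc0 => by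
    obtain ⟨τ, t1, t2, t3⟩ := key c hc0 ((s1 c).1 hc)
    have := (ringHom_eq_of_quad t1 s1 t2 s2 hz).2
    rwa [t3, s3, add_right_inj] at this
  have h5 := (ringHom_eq_of_quad s1 s1 s2 s2 hz).1
  have h6 : ∀ c : F, c = 0 ∨ c = 1 ∨ c ^ 2 = c + 1 := fun c => by
    by_cases hc : σ c = c
    · exact (h4 c hc).imp_right .inl
    have a3 : σ c = c + 1 := by
      linear_combination (h4 _ ((s1 _).2 (s2 c))).resolve_left (sub_ne_zero.2 hc)
    rcases h4 (c ^ 2 + c) (by rw [map_add, map_pow, a3]; linear_combination (c + 1) * h5) with h | h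
    · exact (mul_eq_zero.1 (show c * (c - 1) = 0 by linear_combination h - c * h5)).imp_right
        fun h => .inl (sub_eq_zero.1 h)
    · exact .inr (.inr (by linear_combination h - c * h5))
  have h7 : c₀ ^ 2 = c₀ + 1 := by
    rcases h6 c₀ with h | h | h
    · simp [h] at s3
    · simp [h] at s3
    · exact h
  refine ⟨h5, c₀, h7, fun c => (h6 c).imp_right (Or.imp_right fun h => ?_)⟩
  have : (c - c₀) * (c - (c₀ + 1)) = 0 := by linear_combination h + h7 + (1 + c₀ - c * c₀) * h5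
  exact (mul_eq_zero.1 this).imp sub_eq_zero.1 sub_eq_zero.1

end NatMod

end Cfsg.H3
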